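import Cfsg.Agent.H51.Mult
import Cfsg.Agent.H68.Bounds

/-!
# Elements of odd order in central extensions, through a subgroup of the base (helper494, S2491)

`σ : D → K` a perfect central extension, `π₂ : L → K` a second one of exponent two kernel and `g : D → L` over `K` with
kernel of exponent three; `F ≤ K` perfect of index prime to three.  If `σ u ∈ F` has odd order and `(g u) ^ (3 n)` is in
the commutator subgroup of the preimage of `F` in `L`, then `u` is in the commutator subgroup of the preimage of `F` in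
`D` (`mem_comm`), which is a perfect central extension of `F` (`pce_sub`).
-/

set_option autoImplicit false

namespace Cfsg.Agent.H494.TE

open Subgroup Cfsg.Agent.H51.Mult
open scoped commutatorElement

universe u v w

section sub

variable {D : Type u} {K : Type v} [Group D] [Group K] {σ : D →* K}

theorem comap_comm_le (F : Subgroup K) : ⁅F.comap σ, F.comap σ⁆ ≤ F.comap σ := by
  rw [commutator_le]
  intro a ha b hb
  rw [commutatorElement_def]
  exact mul_mem (mul_mem (mul_mem ha hb) (inv_mem ha)) (inv_mem hb)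

theorem map_comm (h : PCE σ) {F : Subgroup K} (hF : commutator F = ⊤) :
    (⁅F.comap σ, F.comap σ⁆ : Subgroup D).map σ = F := by
  rw [Subgroup.map_commutator, Subgroup.map_comap_eq_self_of_surjective h.surj]
  have h1 := congrArg (Subgroup.map F.subtype) hF
  rw [_root_.commutator_def, Subgroup.map_commutator, ← MonoidHom.range_eq_map, Subgroup.range_subtype] at h1
  exact h1

theorem exists_split (h : PCE σ) {F : Subgroup K} (hF : commutator F = ⊤) {x : D} (hx : σ x ∈ F) :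
    ∃ y ∈ (⁅F.comap σ, F.comap σ⁆ : Subgroup D), ∃ z, σ z = 1 ∧ x = y * z := by
  have h2 : σ x ∈ (⁅F.comap σ, F.comap σ⁆ : Subgroup D).map σ := by rw [map_comm h hF]; exact hx
  obtain ⟨y, hy, hyx⟩ := h2
  exact ⟨y, hy, y⁻¹ * x, by rw [map_mul, map_inv, hyx, inv_mul_cancel], by rw [mul_inv_cancel_left]⟩

/-- the perfect central extension of `F` -/
theorem pce_sub (h : PCE σ) {F : Subgroup K} (hF : commutator F = ⊤) :
    ∃ ρ : (⁅F.comap σ, F.comap σ⁆ : Subgroup D) →* F, (∀ x, ((ρ x : F) : K) = σ x) ∧ PCE ρ := by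
  set T := F.comap σ with hT
  have hleT : ⁅T, T⁆ ≤ T := comap_comm_le F
  have hmap : (⁅T, T⁆).map σ = F := map_comm h hF
  have hT1 : ∀ x ∈ T, ∃ y ∈ ⁅T, T⁆, ∃ z, σ z = 1 ∧ x = y * z := fun x hx => exists_split h hF hx
  have hTT : ⁅T, T⁆ ≤ ⁅⁅T, T⁆, ⁅T, T⁆⁆ := by
    rw [commutator_le]
    intro a ha b hb
    obtain ⟨a', ha', z, hz, rfl⟩ := hT1 a ha
    obtain ⟨b', hb', w, hw, rfl⟩ := hT1 b hb
    have e : ⁅a' * z, b' * w⁆ = ⁅a', b'⁆ := by
      have hz1 := h.comm hz
      have hw1 := h.comm hw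
      simp only [commutatorElement_def, mul_inv_rev]
      calc a' * z * (b' * w) * (z⁻¹ * a'⁻¹) * (w⁻¹ * b'⁻¹)
          = a' * (z * (b' * w)) * (z⁻¹ * a'⁻¹) * (w⁻¹ * b'⁻¹) := by group
        _ = a' * ((b' * w) * z) * (z⁻¹ * a'⁻¹) * (w⁻¹ * b'⁻¹) := by rw [hz1]
        _ = a' * b' * (w * a'⁻¹) * (w⁻¹ * b'⁻¹) := by group
        _ = a' * b' * (a'⁻¹ * w) * (w⁻¹ * b'⁻¹) := by rw [hw1]
        _ = a' * b' * a'⁻¹ * b'⁻¹ := by group
    rw [e]
    exact commutator_mem_commutator ha' hb'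
  set C := ⁅T, T⁆ with hC
  have hDm : ∀ x : C, σ x ∈ F := fun x => hleT x.2
  let ρ : C →* F := (σ.comp C.subtype).codRestrict F hDm
  refine ⟨ρ, fun x => rfl, ?_, ?_, ?_⟩
  · rintro ⟨y, hy⟩
    rw [← hmap] at hy
    obtain ⟨x, hx, hxy⟩ := hy
    exact ⟨⟨x, hx⟩, Subtype.ext hxy⟩
  · intro x hx
    have hx' : σ x = 1 := congrArg Subtype.val hx
    rw [mem_center_iff]
    intro g
    exact Subtype.ext (h.comm hx' g).symm
  · rw [eq_top_iff]
    rintro ⟨x, hx⟩ -
    have h3 := hTT hx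
    have h4 : (⁅C, C⁆ : Subgroup D) = (commutator C).map C.subtype := by
      rw [_root_.commutator_def, Subgroup.map_commutator, ← MonoidHom.range_eq_map, Subgroup.range_subtype]
    rw [h4] at h3
    obtain ⟨y, hy, hyx⟩ := h3
    have : y = ⟨x, hx⟩ := Subtype.ext hyx
    rwa [← this]

/-- central elements of order three (transfer) -/
theorem mem_of_three [Finite D] (h : PCE σ) {F : Subgroup K} (h3 : ¬ 3 ∣ F.index) {z : D} (hz : σ z = 1)
    (hz3 : z ^ 3 = 1) : z ∈ (⁅F.comap σ, F.comap σ⁆ : Subgroup D) := by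
  have hzT : z ∈ F.comap σ := by rw [mem_comap, hz]; exact one_mem _
  have h1 := Cfsg.Agent.Transfer.CentralTransfer.map_pow_index_eq_one_of_perfect h.perf
    (Abelianization.of : F.comap σ →* Abelianization (F.comap σ)) ⟨z, hzT⟩ (h.cen (MonoidHom.mem_ker.2 hz))
  have h2 : (Abelianization.of (⟨z, hzT⟩ : F.comap σ)) ^ 3 = 1 := by
    rw [← map_pow]
    have : (⟨z, hzT⟩ : F.comap σ) ^ 3 = 1 := Subtype.ext hz3
    rw [this, map_one]
  have h4 : Nat.Coprime 3 (F.comap σ).index := by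
    rw [index_comap h]
    exact (Nat.Prime.coprime_iff_not_dvd Nat.prime_three).2 h3
  have h5 := Nat.dvd_gcd (orderOf_dvd_of_pow_eq_one h2) (orderOf_dvd_of_pow_eq_one h1)
  rw [h4.gcd_eq_one] at h5
  have h6 : Abelianization.of (⟨z, hzT⟩ : F.comap σ) = 1 := orderOf_eq_one_iff.1 (Nat.dvd_one.1 h5)
  have h7 : (⟨z, hzT⟩ : F.comap σ) ∈ commutator (F.comap σ) := (QuotientGroup.eq_one_iff _).1 h6
  have h8 : z ∈ (commutator (F.comap σ)).map (F.comap σ).subtype := ⟨_, h7, rfl⟩
  rw [_root_.commutator_def, Subgroup.map_commutator, ← MonoidHom.range_eq_map, Subgroup.range_subtype] at h8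
  exact h8

end sub

section two

variable {D : Type u} {K : Type v} {L : Type w} [Group D] [Group K] [Group L] [Finite D]
  {σ : D →* K} {g : D →* L} {π₂ : L →* K}

/-- **elements of odd order** -/
theorem mem_comm (h : PCE σ) (hg : Function.Surjective g) (hcomp : ∀ x, π₂ (g x) = σ x)
    (h2 : ∀ z, π₂ z = 1 → z ^ 2 = 1) (hk : ∀ z, g z = 1 → z ^ 3 = 1)
    {F : Subgroup K} (hF : commutator F = ⊤) (h3 : ¬ 3 ∣ F.index) {u : D} {n : ℕ} (hn : Odd n)
    (huF : σ u ∈ F) (hz : g (u ^ n) ∈ (⁅F.comap π₂, F.comap π₂⁆ : Subgroup L)) :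
    u ∈ (⁅F.comap σ, F.comap σ⁆ : Subgroup D) := by
  set C : Subgroup D := ⁅F.comap σ, F.comap σ⁆ with hC
  have hker : ∀ z, g z = 1 → z ∈ C := fun z hz =>
    mem_of_three h h3 (by rw [← hcomp, hz, map_one]) (hk z hz)
  -- squares
  have hsq : u ^ 2 ∈ C := by
    obtain ⟨y, hy, z, hz1, rfl⟩ := exists_split h hF huF
    have h4 : z * y = y * z := h.comm hz1 y
    have h5 : (y * z) ^ 2 = y ^ 2 * z ^ 2 := by
      rw [pow_two, pow_two, pow_two]
      calc y * z * (y * z) = y * (z * y) * z := by group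
        _ = y * y * (z * z) := by rw [h4]; group
    rw [h5]
    refine mul_mem (pow_mem hy 2) (hker _ ?_)
    rw [map_pow]
    exact h2 _ (by rw [hcomp, hz1])
  -- the power `n`
  have hpow : u ^ n ∈ C := by
    have h4 : (F.comap σ).map g = F.comap π₂ := by
      have h5 : F.comap σ = (F.comap π₂).comap g := by
        ext x
        rw [mem_comap, mem_comap, mem_comap, hcomp]
      rw [h5, Subgroup.map_comap_eq_self_of_surjective hg]
    have h5 : C.map g = ⁅F.comap π₂, F.comap π₂⁆ := by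
      rw [hC, Subgroup.map_commutator, h4]
    rw [← h5] at hz
    obtain ⟨y, hy, hyx⟩ := hz
    have h6 : y⁻¹ * u ^ n ∈ C := hker _ (by rw [map_mul, map_inv, hyx, inv_mul_cancel])
    have h7 := mul_mem hy h6
    rwa [mul_inv_cancel_left] at h7
  obtain ⟨m, rfl⟩ := hn
  have h4 : u = ((u ^ 2) ^ m)⁻¹ * u ^ (2 * m + 1) := by
    rw [← pow_mul, pow_succ, inv_mul_cancel_left]
  rw [h4]
  exact mul_mem (inv_mem (pow_mem hsq m)) hpow

end two

end Cfsg.Agent.H494.TE
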