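import Cfsg.Agent.TwoESix.GoodFi
import Cfsg.Agent.H66.TwESixCover
import Cfsg.Agent.H494.TE.Sub

/-!
# The nodes of the cover `2².²E₆(2)` and the three `Fi₂₂` (helper494, S2491)
-/

set_option autoImplicit false

namespace Cfsg.Agent.H494.TE

open Subgroup Cfsg.Agent.H51.Mult
open Cfsg Cfsg.Agent.TwoESix Cfsg.Agent.TwoESix.Cox10 Cfsg.Agent.TwoESix.Lift Cfsg.Agent.TwoESix.Cover
open Cfsg.Agent.BabyU.OutFree Cfsg.Agent.TwoESix.GoodFi Cfsg.Agent.H66.TwESixCover
open scoped commutatorElement

universe u v w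

section words

variable {G : Type u} [Group G] {s : Fin 10 → G}

theorem ev_congr {s t : Fin 10 → G} {w : List (Fin 10)} (h : ∀ i ∈ w, s i = t i) : ev s w = ev t w := by
  unfold ev
  rw [List.map_congr_left h]

/-- a product of two `E₇` powers in the nodes different from `9` is in the commutator subgroup -/
theorem words_mem (hl : M10.IsLiftable s) {T : Subgroup G} (hT : ∀ i, i ≠ 9 → s i ∈ T) :
    sig s 0 * sig s 1 ∈ (⁅T, T⁆ : Subgroup G) := by
  have hT' : ∀ i : Fin 10, s (if i = 9 then 3 else i) ∈ T := by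
    intro i
    split_ifs with h
    · exact hT 3 (by decide)
    · exact hT i h
  let t : Fin 10 → T := fun i => ⟨s (if i = 9 then 3 else i), hT' i⟩
  let q : T →* Abelianization T := Abelianization.of
  have hadj : ∀ i j : Fin 10, i ≠ 9 → j ≠ 9 → adj i j = true → q (t i) = q (t j) := by
    intro i j hi hj hij
    have h1 : t i * t j * t i = t j * t i * t j := by
      apply Subtype.ext
      show s (if i = 9 then 3 else i) * s (if j = 9 then 3 else j) * s (if i = 9 then 3 else i) =
        s (if j = 9 then 3 else j) * s (if i = 9 then 3 else i) * s (if j = 9 then 3 else j)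
      rw [if_neg hi, if_neg hj]
      exact braid hl hij
    have h1 := congrArg q h1
    simp only [map_mul] at h1
    have h2 : q (t i) * q (t j) * q (t i) = q (t i) * q (t j) * q (t j) := by
      rw [h1]; rw [mul_comm (q (t j)) (q (t i))]
    exact mul_left_cancel h2
  have e01 := hadj 0 1 (by decide) (by decide) (by decide)
  have e12 := hadj 1 2 (by decide) (by decide) (by decide)
  have e23 := hadj 2 3 (by decide) (by decide) (by decide)
  have e34 := hadj 3 4 (by decide) (by decide) (by decide)
  have e45 := hadj 4 5 (by decide) (by decide) (by decide)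
  have e56 := hadj 5 6 (by decide) (by decide) (by decide)
  have e37 := hadj 3 7 (by decide) (by decide) (by decide)
  have e78 := hadj 7 8 (by decide) (by decide) (by decide)
  have hall : ∀ i, q (t i) = q (t 3) := by
    intro i
    fin_cases i
    · exact e01.trans (e12.trans e23)
    · exact e12.trans e23
    · exact e23
    · rfl
    · exact e34.symm
    · exact e45.symm.trans e34.symm
    · exact e56.symm.trans (e45.symm.trans e34.symm)
    · exact e37.symm
    · exact e78.symm.trans e37.symm
    · rfl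
  have h2 : q (t 3) * q (t 3) = 1 := by
    rw [← map_mul]
    have : t 3 * t 3 = 1 := Subtype.ext (sq hl 3)
    rw [this, map_one]
  have hw : ∀ w : List (Fin 10), w.length = 7 → q (ev t w ^ 9) = q (t 3) := by
    intro w hw
    rw [map_pow, ev_map]
    have h5 : (fun i => q (t i)) = fun _ => q (t 3) := funext hall
    rw [h5]
    have h6 : ev (fun _ : Fin 10 => q (t 3)) w = q (t 3) ^ 7 := by
      rw [ev, List.map_const', List.prod_replicate, hw]
    rw [h6, ← pow_mul]
    calc q (t 3) ^ (7 * 9) = (q (t 3) * q (t 3)) ^ 31 * q (t 3) := by rw [← pow_two, ← pow_mul, ← pow_succ]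
      _ = q (t 3) := by rw [h2, one_pow, one_mul]
  have hco : ∀ w : List (Fin 10), (9 : Fin 10) ∉ w → ((ev t w : T) : G) = ev s w := by
    intro w h9
    rw [show ((ev t w : T) : G) = T.subtype (ev t w) from rfl, ev_map]
    refine ev_congr fun i hi => ?_
    have h3 : i ≠ 9 := by rintro rfl; exact h9 hi
    show s (if i = 9 then 3 else i) = s i
    rw [if_neg h3]
  have h3 : q (ev t W321 ^ 9 * ev t W231 ^ 9) = 1 := by
    rw [map_mul, hw _ (by decide), hw _ (by decide), h2]
  have h4 : ev t W321 ^ 9 * ev t W231 ^ 9 ∈ commutator T := (QuotientGroup.eq_one_iff _).1 h3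
  have h5 : ((ev t W321 ^ 9 * ev t W231 ^ 9 : T) : G) ∈ (commutator T).map T.subtype := ⟨_, h4, rfl⟩
  rw [_root_.commutator_def, Subgroup.map_commutator, ← MonoidHom.range_eq_map, Subgroup.range_subtype] at h5
  have h6 : ((ev t W321 ^ 9 * ev t W231 ^ 9 : T) : G) = sig s 0 * sig s 1 := by
    show ((ev t W321 ^ 9 * ev t W231 ^ 9 : T) : G) = ev s W321 ^ 9 * ev s W231 ^ 9
    rw [Subgroup.coe_mul, SubmonoidClass.coe_pow, SubmonoidClass.coe_pow, hco _ (by decide), hco _ (by decide)]
  rw [← h6]
  exact h5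

end words

section cover

variable {G : Type} [Group G] {s : Fin 10 → G} {z : G}

theorem cs_sX (h : ZRels s z) : CS (sX s) := ⟨lift_sX h, spider_sX h⟩

theorem sig0_sX (h : ZRels s z) : ((sig (sX s) 0 : X s) : G × G) = (z, 1) := e321_sX h
theorem sig1_sX (h : ZRels s z) : ((sig (sX s) 1 : X s) : G × G) = (1, z) := e231_sX h
theorem sig2_sX (h : ZRels s z) : sig (sX s) 2 = 1 := e213_sX h

/-- the three central involutions -/
def zz (s : Fin 10 → G) (n : Fin 6) : X s := sig (fun i => sX s (P6 n i)) 0 * sig (fun i => sX s (P6 n i)) 1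

theorem zz_zero (h : ZRels s z) : ((zz s 0 : X s) : G × G) = (z, z) := by
  unfold zz
  rw [sig_P6 (cs_sX h), sig_P6 (cs_sX h)]
  show ((sig (sX s) 0 * sig (sX s) 1 : X s) : G × G) = (z, z)
  rw [Subgroup.coe_mul, sig0_sX h, sig1_sX h, Prod.mk_mul_mk, mul_one, one_mul]

theorem zz_three (h : ZRels s z) : ((zz s 3 : X s) : G × G) = (z, 1) := by
  unfold zz
  rw [sig_P6 (cs_sX h), sig_P6 (cs_sX h)]
  show ((sig (sX s) 0 * sig (sX s) 2 : X s) : G × G) = (z, 1)
  rw [sig2_sX h, mul_one, sig0_sX h]

theorem zz_two (h : ZRels s z) : ((zz s 2 : X s) : G × G) = (1, z) := by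
  unfold zz
  rw [sig_P6 (cs_sX h), sig_P6 (cs_sX h)]
  show ((sig (sX s) 2 * sig (sX s) 1 : X s) : G × G) = (1, z)
  rw [sig2_sX h, one_mul, sig1_sX h]

theorem zz_mem (h : ZRels s z) (n : Fin 6) {T : Subgroup (X s)} (hT : ∀ i, i ≠ 9 → sX s (P6 n i) ∈ T) :
    zz s n ∈ (⁅T, T⁆ : Subgroup (X s)) :=
  words_mem ((cs_sX h).P6 n).lift hT

variable {K : Type v} [Group K] {π : X s →* K}

/-- the three involutions are in the kernel -/
theorem pi_zz (h : ZRels s z) (htop : closure (Set.range s) = ⊤) (hcK : center K = ⊥) (hπ : PCE π) :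
    π (zz s 0) = 1 ∧ π (zz s 3) = 1 ∧ π (zz s 2) = 1 := by
  have hcen : ∀ g : G, z * g = g * z := fun g => (h.z_central htop g).eq.symm
  have hmem : ∀ y : X s, ((y : G × G).1 = 1 ∨ (y : G × G).1 = z) → ((y : G × G).2 = 1 ∨ (y : G × G).2 = z) → π y = 1 := by
    intro y h1 h2
    have hy : y ∈ center (X s) := by
      rw [mem_center_iff]
      intro g
      apply Subtype.ext
      refine Prod.ext ?_ ?_
      · show (g : G × G).1 * (y : G × G).1 = (y : G × G).1 * (g : G × G).1
        rcases h1 with h1 | h1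
        · rw [h1, one_mul, mul_one]
        · rw [h1, hcen]
      · show (g : G × G).2 * (y : G × G).2 = (y : G × G).2 * (g : G × G).2
        rcases h2 with h2 | h2
        · rw [h2, one_mul, mul_one]
        · rw [h2, hcen]
    have h3 : π y ∈ center K := by
      rw [mem_center_iff] at hy ⊢
      intro g
      obtain ⟨g, rfl⟩ := hπ.surj g
      rw [← map_mul, ← map_mul, hy g]
    rw [hcK] at h3
    exact mem_bot.1 h3
  exact ⟨hmem _ (by rw [zz_zero h]; exact Or.inr rfl) (by rw [zz_zero h]; exact Or.inr rfl),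
    hmem _ (by rw [zz_three h]; exact Or.inr rfl) (by rw [zz_three h]; exact Or.inl rfl),
    hmem _ (by rw [zz_two h]; exact Or.inl rfl) (by rw [zz_two h]; exact Or.inr rfl)⟩

/-- the kernel of the cover -/
theorem ker_cases (h : ZRels s z) (htop : closure (Set.range s) = ⊤) (hz : z ≠ 1) (hcK : center K = ⊥)
    (hπ : PCE π) (hk : Nat.card π.ker = 4) {x : X s} (hx : π x = 1) :
    x = 1 ∨ x = zz s 0 ∨ x = zz s 3 ∨ x = zz s 2 := by
  classical
  obtain ⟨h0, h3, h2⟩ := pi_zz h htop hcK hπ
  have : Finite π.ker := Nat.finite_of_card_ne_zero (by rw [hk]; norm_num)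
  have : Fintype π.ker := Fintype.ofFinite _
  let S : Finset π.ker := {⟨1, map_one π⟩, ⟨zz s 0, h0⟩, ⟨zz s 3, h3⟩, ⟨zz s 2, h2⟩}
  have e1 : (1 : X s) ≠ zz s 0 := fun e => hz (by
    have := congrArg (fun y : X s => (y : G × G).1) e
    simp only [zz_zero h] at this
    exact this.symm)
  have e2 : (1 : X s) ≠ zz s 3 := fun e => hz (by
    have := congrArg (fun y : X s => (y : G × G).1) e
    simp only [zz_three h] at this
    exact this.symm)
  have e3 : (1 : X s) ≠ zz s 2 := fun e => hz (by
    have := congrArg (fun y : X s => (y : G × G).2) e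
    simp only [zz_two h] at this
    exact this.symm)
  have e4 : zz s 0 ≠ zz s 3 := fun e => hz (by
    have := congrArg (fun y : X s => (y : G × G).2) e
    simp only [zz_zero h, zz_three h] at this
    exact this)
  have e5 : zz s 0 ≠ zz s 2 := fun e => hz (by
    have := congrArg (fun y : X s => (y : G × G).1) e
    simp only [zz_zero h, zz_two h] at this
    exact this)
  have e6 : zz s 3 ≠ zz s 2 := fun e => hz (by
    have := congrArg (fun y : X s => (y : G × G).1) e
    simp only [zz_three h, zz_two h] at this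
    exact this)
  have hS : S.card = 4 := by
    rw [Finset.card_insert_of_notMem, Finset.card_insert_of_notMem, Finset.card_insert_of_notMem,
      Finset.card_singleton]
    · rw [Finset.mem_singleton]; exact fun e => e6 (congrArg Subtype.val e)
    · simp only [Finset.mem_insert, Finset.mem_singleton, not_or]
      exact ⟨fun e => e4 (congrArg Subtype.val e), fun e => e5 (congrArg Subtype.val e)⟩
    · simp only [Finset.mem_insert, Finset.mem_singleton, not_or]
      exact ⟨fun e => e1 (congrArg Subtype.val e), fun e => e2 (congrArg Subtype.val e),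
        fun e => e3 (congrArg Subtype.val e)⟩
  have hSu : S = Finset.univ := by
    apply Finset.eq_univ_of_card
    rw [hS, ← hk, Nat.card_eq_fintype_card]
  have hxS : (⟨x, hx⟩ : π.ker) ∈ S := by rw [hSu]; exact Finset.mem_univ _
  simp only [S, Finset.mem_insert, Finset.mem_singleton] at hxS
  rcases hxS with e | e | e | e
  · exact Or.inl (congrArg Subtype.val e)
  · exact Or.inr (Or.inl (congrArg Subtype.val e))
  · exact Or.inr (Or.inr (Or.inl (congrArg Subtype.val e)))
  · exact Or.inr (Or.inr (Or.inr (congrArg Subtype.val e)))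

theorem zz_sq (h : ZRels s z) {x : X s} (hx : x = 1 ∨ x = zz s 0 ∨ x = zz s 3 ∨ x = zz s 2) : x ^ 2 = 1 := by
  have hzz : z * z = 1 := h.zz
  rcases hx with rfl | rfl | rfl | rfl
  · exact one_pow 2
  all_goals
    apply Subtype.ext
    rw [SubmonoidClass.coe_pow, pow_two]
    first
      | rw [zz_zero h, Prod.mk_mul_mk, hzz]; rfl
      | rw [zz_three h, Prod.mk_mul_mk, hzz, one_mul]; rfl
      | rw [zz_two h, Prod.mk_mul_mk, hzz, one_mul]; rfl

/-- the nodes in the quotient -/
theorem good_img (h : ZRels s z) (h0 : π (zz s 3) = 1) (h1 : π (zz s 2) = 1) : Good (fun i => π (sX s i)) := by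
  have hev : ∀ w, ev (fun i => π (sX s i)) w = π (ev (sX s) w) := fun w => (ev_map π (sX s) w).symm
  refine ⟨fun i j => ?_, ?_, ?_, ?_, ?_⟩
  · show (π (sX s i) * π (sX s j)) ^ _ = 1
    rw [← map_mul, ← map_pow, lift_sX h i j, map_one]
  · rw [hev, ← map_pow, spider_sX h, map_one]
  · rw [hev, ← map_pow, ← h0]
    congr 1
    exact Subtype.ext ((e321_sX h).trans (zz_three h).symm)
  · rw [hev, ← map_pow, ← h1]
    congr 1
    exact Subtype.ext ((e231_sX h).trans (zz_two h).symm)
  · rw [hev, ← map_pow, e213_sX h, map_one]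

end cover

end Cfsg.Agent.H494.TE
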