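import Cfsg.Agent.H494.TE.Node
import Cfsg.Agent.H6.QO.Frame
import Cfsg.Agent.S2109
import Cfsg.Agent.S1070
import Cfsg.Agent.S1696

/-!
# `²E₆(2)`: the elements of prime power order `3^k, 5^k, 11^k, 13^k` through the three `Fi₂₂` (helper494; S2491, F4)

`isC_of_odd`, `isC_of_primepow'` : in every finite perfect central extension of `²E₆(2)` the elements over nontrivial
elements of order a power of `3, 5, 11` or `13` are commutators (from the row `Fi22`).
-/

set_option autoImplicit false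

namespace Cfsg.Agent.H494.TE

open Subgroup Cfsg.Agent.H51.Mult Cfsg.Agent.H6.QO Cfsg.Agent.H777.Ore
open Cfsg Cfsg.Lie Cfsg.Agent.TwoESix Cfsg.Agent.TwoESix.Cox10 Cfsg.Agent.TwoESix.Lift Cfsg.Agent.TwoESix.Cover
open Cfsg.Agent.BabyU.OutFree Cfsg.Agent.TwoESix.GoodFi Cfsg.Agent.H66.TwESixCover
open scoped commutatorElement

universe u v w

theorem simple_Fi : IsSimpleGroup Spor.Fi22 := Cfsg.Agent.S1696.result.1
theorem card_Fi : Nat.card Spor.Fi22 = 64561751654400 := Cfsg.Agent.S1696.result.2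

theorem noncomm_Fi : ∃ a b : Spor.Fi22, a * b ≠ b * a := by
  by_contra hc
  push Not at hc
  have := simple_Fi
  have : Finite Spor.Fi22 := Nat.finite_of_card_ne_zero (by rw [card_Fi]; norm_num)
  let _ : CommGroup Spor.Fi22 := { (inferInstance : Group Spor.Fi22) with mul_comm := hc }
  have h1 := IsSimpleGroup.prime_card (α := Spor.Fi22)
  rw [card_Fi] at h1
  exact absurd h1 (by norm_num)

theorem perfect_Fi : commutator Spor.Fi22 = ⊤ := by
  have := simple_Fi
  rcases (inferInstance : (commutator Spor.Fi22).Normal).eq_bot_or_eq_top with h | h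
  · exfalso
    obtain ⟨a, b, hab⟩ := noncomm_Fi
    rw [commutator_def, commutator_eq_bot_iff_le_centralizer] at h
    exact hab (mem_centralizer_iff.1 (h (mem_top a)) b (mem_top b)).symm
  · exact h

theorem center_Fi : center Spor.Fi22 = ⊥ := by
  have := simple_Fi
  rcases (inferInstance : (center Spor.Fi22).Normal).eq_bot_or_eq_top with h | h
  · exact h
  · exfalso
    obtain ⟨a, b, hab⟩ := noncomm_Fi
    have h1 : b ∈ center Spor.Fi22 := by rw [h]; exact mem_top _
    exact hab (mem_center_iff.1 h1 a)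

section fi

variable {K : Type v} [Group K] {e : Fin 10 → K}

/-- the images of `Fi22` -/
theorem fi_inj (he : Good e) (htop : closure (Set.range e) = ⊤) (hK : Nontrivial K) (n : Fin 6) :
    Function.Injective (fiA (good_P6 he n)) := by
  have := simple_Fi
  rw [← MonoidHom.ker_eq_bot_iff]
  rcases (MonoidHom.normal_ker (fiA (good_P6 he n))).eq_bot_or_eq_top with h | h
  · exact h
  · exfalso
    have h1 : ∀ g : Spor.Fi22, fiA (good_P6 he n) g = 1 := fun g => by
      have : g ∈ (fiA (good_P6 he n)).ker := by rw [h]; exact mem_top _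
      exact this
    have h8 : e (P6 n 8) = 1 := by
      have h2 := fiA_of (good_P6 he n) Spor.Fi22.Gen.i
      rw [h1] at h2
      exact h2.symm
    have hl : M10.IsLiftable (fun i => e (P6 n i)) := (good_P6 he n).lift
    have hmv : ∀ i j : Fin 10, adj i j = true → e (P6 n i) = 1 → e (P6 n j) = 1 := by
      intro i j hij hi
      have h2 : e (P6 n i) * e (P6 n j) * e (P6 n i) = e (P6 n j) * e (P6 n i) * e (P6 n j) := braid hl hij
      have h3 : e (P6 n j) * e (P6 n j) = 1 := sq hl j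
      rw [hi, one_mul, mul_one] at h2
      rw [h2]
      exact h3
    have h7 := hmv 8 7 (by decide) h8
    have h9 := hmv 8 9 (by decide) h8
    have h3 := hmv 7 3 (by decide) h7
    have h2 := hmv 3 2 (by decide) h3
    have h1' := hmv 2 1 (by decide) h2
    have h0 := hmv 1 0 (by decide) h1'
    have h4 := hmv 3 4 (by decide) h3
    have h5 := hmv 4 5 (by decide) h4
    have h6 := hmv 5 6 (by decide) h5
    have hall : ∀ i, e (P6 n i) = 1 := by
      intro i
      fin_cases i
      · exact h0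
      · exact h1'
      · exact h2
      · exact h3
      · exact h4
      · exact h5
      · exact h6
      · exact h7
      · exact h8
      · exact h9
    have hr : closure (Set.range e) ≤ ⊥ := by
      rw [closure_le]
      rintro _ ⟨i, rfl⟩
      obtain ⟨j, rfl⟩ := P6_surj n i
      exact mem_bot.2 (hall j)
    rw [htop] at hr
    obtain ⟨x, hx⟩ := exists_ne (1 : K)
    exact hx (mem_bot.1 (hr (mem_top x)))

end fi

/-- a `p`-element is conjugate into a subgroup of `p'`-index -/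
theorem exists_conj_mem {K : Type v} [Group K] [Finite K] {p : ℕ} (hp : p.Prime) {F : Subgroup K} (hF : ¬ p ∣ F.index)
    {x : K} {k : ℕ} (hx : x ^ p ^ k = 1) : ∃ c : K, c * x * c⁻¹ ∈ F := by
  haveI : Fact p.Prime := ⟨hp⟩
  have hP : IsPGroup p (zpowers x) := by
    rw [IsPGroup.iff_orderOf]
    rintro ⟨y, n, rfl⟩
    have h1 : (⟨x ^ n, ⟨n, rfl⟩⟩ : zpowers x) ^ p ^ k = 1 := by
      apply Subtype.ext
      show (x ^ n) ^ p ^ k = 1
      rw [← zpow_natCast, ← zpow_mul, mul_comm, zpow_mul, zpow_natCast, hx, one_zpow]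
    obtain ⟨j, -, hj⟩ := (Nat.dvd_prime_pow hp).1 (orderOf_dvd_of_pow_eq_one h1)
    exact ⟨j, hj⟩
  obtain ⟨a, ha⟩ := hP.nonempty_fixed_point_of_prime_not_dvd_card (K ⧸ F) (by
    rwa [← Subgroup.index_eq_card])
  obtain ⟨c, rfl⟩ := QuotientGroup.mk_surjective a
  have h1 := ha ⟨x, mem_zpowers x⟩
  have h2 : ((x * c : K) : K ⧸ F) = (c : K ⧸ F) := h1
  refine ⟨c⁻¹, ?_⟩
  have h3 := QuotientGroup.eq.1 h2.symm
  rwa [← mul_assoc, show c⁻¹ * x * c = c⁻¹ * x * c⁻¹⁻¹ by rw [inv_inv]] at h3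

/-- the index of `Fi22` in `²E₆(2)` -/
theorem index_Fi {K : Type v} [Group K] [Finite K] (hK : Nat.card K = 76532479683774853939200) {F : Subgroup K}
    (hF : Nat.card F = 64561751654400) : F.index = 1185415168 := by
  have h1 := F.card_mul_index
  rw [hK, hF] at h1
  omega

/-- **Elements of odd order conjugate into all subgroups `Fi22` of index 1185415168.** -/
theorem isC_of_odd (hFi : RowN Spor.Fi22) {F : Type w} [Field F] [Fintype F] (hF : Fintype.card F = 4)
    {M : Type u} [Group M] [Finite M] {π : M →* ↥(twistedE6 F 2)} (hπ : PCE π) {g : M} {n : ℕ} (hn : Odd n)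
    (hg : π g ^ n = 1) (hg1 : π g ≠ 1)
    (hc : ∀ T : Subgroup ↥(twistedE6 F 2), T.index = 1185415168 → ∃ c, c * π g * c⁻¹ ∈ T) : IsC g := by
  have hE := BM.HBFinal.card_E F hF
  have hfin : Finite ↥(twistedE6 F 2) := Nat.finite_of_card_ne_zero (by rw [hE]; norm_num)
  have hs : IsSimpleGroup ↥(twistedE6 F 2) := (Cfsg.Agent.S1070.result Nat.prime_two.isPrimePow hF).1
  have hcomm : ¬ IsMulCommutative ↥(twistedE6 F 2) := (Cfsg.Agent.S1070.result Nat.prime_two.isPrimePow hF).2
  have hcK : center ↥(twistedE6 F 2) = ⊥ := by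
    rcases (inferInstance : (center ↥(twistedE6 F 2)).Normal).eq_bot_or_eq_top with h | h
    · exact h
    · exfalso
      refine hcomm ⟨⟨fun a b => ?_⟩⟩
      have h1 : b ∈ center ↥(twistedE6 F 2) := by rw [h]; exact mem_top _
      exact mem_center_iff.1 h1 a
  -- the cover of order four
  obtain ⟨e₀, r, he₀, hgen, -⟩ := GoodInst.exists_good F hF
  have hY := finite_Y
  obtain ⟨π₂, h1, h2⟩ := exists_pce zrels_sY closure_sY zY_ne he₀ hgen
    (fun H _ y hy ht => KFacts.Mult.TwESixTwo.card_le_E F hF H y hy ht) BM.HBFinal.finite_HB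
    (by rw [card_Y, hE])
  have hker : ∀ x, π₂ x = 1 → x = 1 ∨ x = zz sY 0 ∨ x = zz sY 3 ∨ x = zz sY 2 := fun x hx =>
    ker_cases zrels_sY closure_sY zY_ne hcK h1 h2 hx
  obtain ⟨h0, h3, h2'⟩ := pi_zz zrels_sY closure_sY hcK h1
  have he : Good (fun i => π₂ (sX sY i)) := good_img zrels_sY h3 h2'
  have hetop : closure (Set.range fun i => π₂ (sX sY i)) = ⊤ := by
    have h4 : (Set.range fun i => π₂ (sX sY i)) = π₂ '' Set.range (sX sY) := by
      rw [← Set.range_comp]; rfl
    rw [h4, ← MonoidHom.map_closure, closure_sX, ← MonoidHom.range_eq_map, MonoidHom.range_eq_top.2 h1.surj]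
  -- a common refinement
  obtain ⟨D, _, f, gg, hf, hgg, hfg, hD, hDf⟩ := H68.Bounds.exists_common hπ h1
  haveI : Finite D := hDf inferInstance inferInstance
  have hcomp : ∀ x, π₂ (gg x) = (π.comp f) x := fun x => (DFunLike.congr_fun hfg x).symm
  have hk3 : ∀ z, gg z = 1 → z ^ 3 = 1 := by
    have h4 : Nat.card (π₂.comp gg).ker = Nat.card π₂.ker * Nat.card gg.ker := H68.Bounds.card_ker_comp hgg.surj
    have h5 : Nat.card (π.comp f).ker ∣ 12 := by
      have h6 := H990.TC.card_ker_dvd (Cfsg.Agent.S2109.result hF) hD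
      have h7 : Nat.card (Multiplicative (ZMod 3 × ZMod 2 × ZMod 2)) = 12 := by
        rw [Nat.card_congr (Multiplicative.toAdd (α := ZMod 3 × ZMod 2 × ZMod 2)), Nat.card_prod, Nat.card_prod,
          Nat.card_zmod, Nat.card_zmod]
      rwa [h7] at h6
    rw [hfg, h4, h2] at h5
    have h6 : Nat.card gg.ker ∣ 3 := Nat.dvd_of_mul_dvd_mul_left (by norm_num : 0 < 4) h5
    intro z hz
    have h7 : (⟨z, hz⟩ : gg.ker) ^ 3 = 1 := by
      obtain ⟨c, hc⟩ := h6
      rw [hc, pow_mul, pow_card_eq_one', one_pow]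
    exact congrArg Subtype.val h7
  obtain ⟨u, rfl⟩ := hf.surj g
  refine IsC.map f ?_
  have hζ : π₂ (gg (u ^ n)) = 1 := by rw [hcomp, map_pow]; exact hg
  -- the choice of the subgroup
  obtain ⟨m, hm⟩ : ∃ m : Fin 6, gg (u ^ n) = 1 ∨ gg (u ^ n) = zz sY m := by
    rcases hker _ hζ with h | h | h | h
    · exact ⟨0, Or.inl h⟩
    · exact ⟨0, Or.inr h⟩
    · exact ⟨3, Or.inr h⟩
    · exact ⟨2, Or.inr h⟩
  have hinj := fi_inj he hetop inferInstance m
  set T : Subgroup ↥(twistedE6 F 2) := (fiA (good_P6 he m)).range with hT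
  let eT : Spor.Fi22 ≃* T := MonoidHom.ofInjective hinj
  have hTc : Nat.card T = 64561751654400 := by rw [← Nat.card_congr eT.toEquiv]; exact card_Fi
  have hTi : T.index = 1185415168 := index_Fi hE hTc
  have hTp : commutator T = ⊤ :=
    Cfsg.Agent.KFacts.MulDef.commutator_top_of_surj eT.toMonoidHom eT.surjective perfect_Fi
  obtain ⟨c, hc1⟩ := hc T hTi
  obtain ⟨d, hd⟩ := hD.surj c
  refine IsC.of_conj d ?_
  have hvT : (π.comp f) (d * u * d⁻¹) ∈ T := by
    rw [map_mul, map_mul, map_inv, hd]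
    exact hc1
  have hvn : gg ((d * u * d⁻¹) ^ n) = gg (u ^ n) := by
    rw [conj_pow, map_mul, map_mul, map_inv, ← h1.comm hζ, mul_assoc, mul_inv_cancel, mul_one]
  have hmem : gg ((d * u * d⁻¹) ^ n) ∈ (⁅T.comap π₂, T.comap π₂⁆ : Subgroup (X sY)) := by
    rw [hvn]
    rcases hm with h | h
    · rw [h]; exact one_mem _
    · rw [h]
      refine zz_mem zrels_sY m fun i hi => ?_
      rw [mem_comap, hT, range_fiA (good_P6 he m)]
      exact subset_closure ⟨i, hi, rfl⟩
  have hvC := mem_comm hD hgg.surj hcomp (fun z hz => zz_sq zrels_sY (hker z hz)) hk3 hTp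
    (by rw [hTi]; norm_num) hn hvT hmem
  obtain ⟨ρ, hρ, hρP⟩ := pce_sub hD hTp
  have hNC := (hFi.congr eT).any hρP
  refine IsC.of_sub _ hvC (hNC ⟨d * u * d⁻¹, hvC⟩ fun hcen => ?_)
  have h8 : ρ ⟨d * u * d⁻¹, hvC⟩ ∈ center T := by
    rw [mem_center_iff] at hcen ⊢
    intro y
    obtain ⟨y, rfl⟩ := hρP.surj y
    rw [← map_mul, ← map_mul, hcen y]
  have h9 : eT.symm (ρ ⟨d * u * d⁻¹, hvC⟩) ∈ center Spor.Fi22 := by
    rw [mem_center_iff] at h8 ⊢
    intro y
    apply eT.injective
    rw [map_mul, map_mul, eT.apply_symm_apply]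
    exact h8 (eT y)
  rw [center_Fi, mem_bot, MulEquiv.map_eq_one_iff] at h9
  have h10 : (π.comp f) (d * u * d⁻¹) = 1 := by
    have h11 := hρ ⟨d * u * d⁻¹, hvC⟩
    rw [h9] at h11
    exact h11.symm
  apply hg1
  rw [map_mul, map_mul, map_inv] at h10
  have h11 : (π.comp f) u = 1 := by
    have h12 : (π.comp f) d * (π.comp f) u = (π.comp f) d := by
      rw [mul_inv_eq_one] at h10
      exact h10
    exact mul_eq_left.1 h12
  exact h11

/-- **T3**: elements of order a power of `3, 5, 11, 13`. -/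
theorem isC_of_primepow' (hFi : RowN Spor.Fi22) {F : Type w} [Field F] [Fintype F] (hF : Fintype.card F = 4)
    {M : Type u} [Group M] [Finite M] {π : M →* ↥(twistedE6 F 2)} (hπ : PCE π) {g : M} {p k : ℕ}
    (hp : p = 3 ∨ p = 5 ∨ p = 11 ∨ p = 13) (hg : π g ^ p ^ k = 1) (hg1 : π g ≠ 1) : IsC g := by
  have hE := BM.HBFinal.card_E F hF
  have hfin : Finite ↥(twistedE6 F 2) := Nat.finite_of_card_ne_zero (by rw [hE]; norm_num)
  have hp' : p.Prime ∧ Odd p ∧ ¬ p ∣ 1185415168 := by
    rcases hp with rfl | rfl | rfl | rfl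
    · exact ⟨by norm_num, by decide, by norm_num⟩
    · exact ⟨by norm_num, by decide, by norm_num⟩
    · exact ⟨by norm_num, by decide, by norm_num⟩
    · exact ⟨by norm_num, by decide, by norm_num⟩
  refine isC_of_odd hFi hF hπ (hp'.2.1.pow) hg hg1 fun T hT => ?_
  exact exists_conj_mem hp'.1 (by rw [hT]; exact hp'.2.2) hg

end Cfsg.Agent.H494.TE
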