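import Cfsg.Agent.H494.TE.Three
import Cfsg.Agent.H326.QS.FiFinal

/-!
# `²E₆(2)`: elements of order `3^k, 5^k, 11^k, 13^k` in the covers (helper494; box T3 of the row F4 of S2491)
-/

set_option autoImplicit false

namespace Cfsg.Agent.H494.TE

open Cfsg.Agent.H51.Mult Cfsg.Agent.H777.Ore Cfsg.Lie

universe u w

/-- **T3**: in every finite perfect central extension of `²E₆(2)` every element over a nontrivial element of order a
power of `3, 5, 11` or `13` is a commutator. -/
theorem isC_of_primepow {F : Type w} [Field F] [Fintype F] (hF : Fintype.card F = 4)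
    {M : Type u} [Group M] [Finite M] {π : M →* ↥(twistedE6 F 2)} (hπ : PCE π) {g : M} {p k : ℕ}
    (hp : p = 3 ∨ p = 5 ∨ p = 11 ∨ p = 13) (hg : π g ^ p ^ k = 1) (hg1 : π g ≠ 1) : IsC g :=
  isC_of_primepow' Cfsg.Agent.H326.QS.FiRow.rowN_Fi22 hF hπ hp hg hg1

/-- elements of odd order conjugate into every subgroup of index 1185415168 (all `Fi₂₂`) -/
theorem isC_of_odd_conj {F : Type w} [Field F] [Fintype F] (hF : Fintype.card F = 4)
    {M : Type u} [Group M] [Finite M] {π : M →* ↥(twistedE6 F 2)} (hπ : PCE π) {g : M} {n : ℕ} (hn : Odd n)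
    (hg : π g ^ n = 1) (hg1 : π g ≠ 1)
    (hc : ∀ T : Subgroup ↥(twistedE6 F 2), T.index = 1185415168 → ∃ c, c * π g * c⁻¹ ∈ T) : IsC g :=
  isC_of_odd Cfsg.Agent.H326.QS.FiRow.rowN_Fi22 hF hπ hn hg hg1 hc

end Cfsg.Agent.H494.TE
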